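import Mathlib
import Cfsg.Agent.FGS.GK.Key
import Cfsg.Agent.PERM.MinNormal
import Cfsg.Agent.S0205

/-!
The Gruenberg-Kegel structure theorem.
-/

set_option autoImplicit false
open Subgroup

namespace CL.GK
open Cfsg CL.TF

variable {G : Type*} [Group G] [Finite G] {Δ : Set ℕ}

theorem Cl.solvable {S : Subgroup G} (h : Cl S) : Group.IsSolvable S := by
  obtain ⟨P⟩ : Nonempty (Sylow 2 S) := inferInstance
  have := cl_iff.1 h P
  have h1 : Group.IsSolvable (S ⧸ (P : Subgroup S)) :=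
    Cfsg.Agent.S0205.result (Nat.odd_iff.2 (Nat.two_dvd_ne_zero.1 P.not_dvd_index))
  have := P.2.isNilpotent
  exact solvable_of_ker_le_range (P : Subgroup S).subtype (QuotientGroup.mk' (P : Subgroup S))
    (by simp)

theorem Sep.cen_le (h : Sep Δ G) (h0 : piCore Δ G ≠ ⊥) :
    centralizer (piCore Δ G : Set G) ≤ piCore Δ G :=
  le_piCore (h.cen h0 (isPiNum_card_piCore Δ G))

theorem Sep.frob (h : Sep Δ G) (h2 : 2 ∉ Δ) (h0 : piCore Δ G ≠ ⊥) {t : G} (ht : orderOf t = 2) :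
    ∃ C : Subgroup G, IsFrobeniusComplement C := by
  have hL := isPiNum_card_piCore Δ G
  have hi := (h.index_cen h2 h0 hL ht).of_dvd (index_dvd_of_le (h.cen_le h0))
  refine (FK.frob (fun x hx h1 y hy => (QuotientGroup.eq_one_iff y).1 (orderOf_eq_one_iff.1 ?_)) h0
    fun e => h2 (hL 2 Nat.prime_two (ht ▸ Subgroup.orderOf_dvd_natCard _ (e.ge (mem_top t))))).imp
      fun _ => And.left
  exact ((isPiNum_of_commute h (mem_centralizer_singleton_iff.1 hy.2).symm h1
    (hL.of_dvd (Subgroup.orderOf_dvd_natCard _ hx))).of_dvd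
      (orderOf_map_dvd (QuotientGroup.mk' (piCore Δ G)) y)).eq_one
        (hi.of_dvd (orderOf_dvd_natCard _))

theorem Sep.simple [Nontrivial G] (h : Sep Δ G) (h2 : 2 ∉ Δ) (h0 : piCore Δ G = ⊥)
    (h1 : piCore Δᶜ G = ⊥) : ∃ S : Subgroup G, S.Normal ∧ IsSimpleGroup S ∧
      ¬ IsMulCommutative S ∧ IsPiNum Δᶜ S.index := by
  obtain ⟨S, _, hS0, -, hmin⟩ := Perm.exists_minimal_normal_le (⊤ : Subgroup G) top_ne_bot
  have ha : ∃ a ∈ Δ, a.Prime ∧ a ∣ Nat.card S := by
    by_contra hc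
    exact hS0 (eq_bot_iff.2 (h1 ▸ le_piCore fun a ha hd haΔ => hc ⟨a, haΔ, ha, hd⟩))
  have hb : ∃ b ∉ Δ, b.Prime ∧ b ∣ Nat.card S := by
    by_contra hc
    exact hS0 (eq_bot_iff.2 (h0 ▸ le_piCore fun b hb hd => by_contra fun hbΔ => hc ⟨b, hbΔ, hb, hd⟩))
  obtain ⟨a, haΔ, ha, had⟩ := ha
  obtain ⟨b, hbΔ, hb, hbd⟩ := hb
  have hne : a ≠ b := fun e => hbΔ (e ▸ haΔ)
  have hs : IsSimpleGroup S := by
    obtain ⟨T, m, -, hT, hm, ⟨e⟩⟩ := Perm.exists_mulEquiv_pi_of_minimal_normal S hS0 hmin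
    have hc : Nat.card S = Nat.card T ^ m := by rw [Nat.card_congr e.toEquiv, Nat.card_fun]; simp
    by_cases h3 : m = 1
    · subst h3
      exact (e.trans (MulEquiv.funUnique (Fin 1) T)).isSimpleGroup
    · have := Fact.mk ha
      have := Fact.mk hb
      obtain ⟨x, hx⟩ := exists_prime_orderOf_dvd_card' (G := T) a (ha.dvd_of_dvd_pow (hc ▸ had))
      obtain ⟨y, hy⟩ := exists_prime_orderOf_dvd_card' (G := T) b (hb.dvd_of_dvd_pow (hc ▸ hbd))
      let i : Fin m := ⟨0, hm⟩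
      let j : Fin m := ⟨1, by omega⟩
      have hij : i ≠ j := by simp [i, j]
      have h4 : Commute (Pi.mulSingle i x : Fin m → T) (Pi.mulSingle j y) :=
        Pi.mulSingle_commute (f := fun _ : Fin m => T) hij x y
      have h5 : ∀ (k : Fin m) (z : T), orderOf (Pi.mulSingle k z : Fin m → T) = orderOf z :=
        fun k z => orderOf_injective (MonoidHom.mulSingle (fun _ : Fin m => T) k)
          (fun u v e => by simpa using congrFun e k) z
      exact absurd (exists_orderOf_of_commute h4 ha hb hne (by rw [h5, hx]) (by rw [h5, hy]))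
        ((h.sub S).quot (f := e.toMonoidHom) e.surjective a haΔ b hbΔ ha hb)
  have hn : ¬ IsMulCommutative S := fun hc => by
    have := Fact.mk ha
    have := Fact.mk hb
    obtain ⟨x, hx⟩ := exists_prime_orderOf_dvd_card' (G := S) a had
    obtain ⟨y, hy⟩ := exists_prime_orderOf_dvd_card' (G := S) b hbd
    exact h.sub S a haΔ b hbΔ ha hb
      (exists_orderOf_of_commute (hc.is_comm.comm x y) ha hb hne (hx ▸ dvd_rfl) (hy ▸ dvd_rfl))
  refine ⟨S, inferInstance, hs, hn, fun p hp hd hpΔ => hn ?_⟩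
  have := (h.key h2 S hp hpΔ hd).solvable
  exact ⟨⟨IsSimpleGroup.comm_iff_isSolvable.2 this⟩⟩

theorem Sep.solvable (h : Sep Δ G) (h2 : 2 ∉ Δ) {p : ℕ} (hp : p.Prime) (hpΔ : p ∈ Δ)
    (hd : p ∣ Nat.card G) (h0 : piCore Δᶜ G ≠ ⊥) (h1 : piCore Δ (G ⧸ piCore Δᶜ G) ≠ ⊥) :
    Group.IsSolvable G := by
  set K := piCore Δᶜ G
  set f := QuotientGroup.mk' K
  have hf : Function.Surjective f := QuotientGroup.mk'_surjective K
  set L := piCore Δ (G ⧸ K)
  have hK := isPiNum_card_piCore Δᶜ G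
  have hL := isPiNum_card_piCore Δ (G ⧸ K)
  have := h.nilp hp hpΔ hd hK
  have hq := h.quot hf
  suffices Group.IsSolvable (G ⧸ K) from solvable_of_ker_le_range K.subtype f (by simp [f])
  by_cases ho : Odd (Nat.card (G ⧸ K))
  · exact Cfsg.Agent.S0205.result ho
  obtain ⟨t, ht⟩ := exists_prime_orderOf_dvd_card' (G := G ⧸ K) 2
    (even_iff_two_dvd.1 (Nat.not_odd_iff_even.1 ho))
  have hc : IsMulCommutative L := ⟨⟨fun x y => Subtype.ext (by
    have e := hq.inverts h2 hL ht (mul_mem x.2 y.2)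
    rw [show t * ((x : G ⧸ K) * y) * t⁻¹ = (t * x * t⁻¹) * (t * y * t⁻¹) by group,
      hq.inverts h2 hL ht x.2, hq.inverts h2 hL ht y.2, ← mul_inv_rev, inv_inj] at e
    exact e.symm)⟩⟩
  have hFK : FK K (L.comap f) := fun x hx h3 y hy => (QuotientGroup.eq_one_iff y).1
    (orderOf_eq_one_iff.1 ((hL.of_dvd (L.orderOf_dvd_natCard hy.1)).eq_one
      ((isPiNum_of_commute h.compl (mem_centralizer_singleton_iff.1 hy.2).symm h3
        (hK.of_dvd (K.orderOf_dvd_natCard hx))).of_dvd (orderOf_map_dvd f y))))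
  have e := map_comap_eq_self_of_surjective hf L
  obtain ⟨h3, -⟩ | ⟨z, h3, h4, h5⟩ := hFK.cyclic_or (le_comap_mk' _ _) h0
    (e.symm ▸ isNilpotent_of_isMulCommutative L)
  · rw [e] at h3
    have h4 := (commutator_le_centralizer_of_cyclic_normal L).trans (hq.cen_le h1)
    have : Group.IsSolvable ((G ⧸ K) ⧸ L) := by
      have := (Subgroup.Normal.quotient_commutative_iff_commutator_le (N := L)).2 h4
      exact Group.isSolvable_of_comm this.is_comm.comm
    have : Group.IsSolvable L := Group.isSolvable_of_comm hc.is_comm.comm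
    exact solvable_of_ker_le_range L.subtype (QuotientGroup.mk' L) (by simp)
  · exact absurd (isPiNum_of_commute hq (mem_center_iff.1 h5 t).symm h4
      (hL.of_dvd (L.orderOf_dvd_natCard (e.le h3))) 2 Nat.prime_two (ht ▸ dvd_rfl)) h2

theorem Sep.main (h : Sep Δ G) (h2 : 2 ∉ Δ) {p : ℕ} (hp : p.Prime) (hpΔ : p ∈ Δ)
    (hd : p ∣ Nat.card G) (he : 2 ∣ Nat.card G) :
    (∃ C : Subgroup G, IsFrobeniusComplement C) ∨ Group.IsSolvable G ∨
      ∃ (N M : Subgroup G) (_ : N.Normal) (_ : M.Normal), N ≤ M ∧ IsPiNum Δᶜ (Nat.card N) ∧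
        IsPiNum Δᶜ M.index ∧ IsSimpleGroup (M ⧸ N.subgroupOf M) ∧
          ¬ IsMulCommutative (M ⧸ N.subgroupOf M) := by
  obtain ⟨t, ht⟩ := exists_prime_orderOf_dvd_card' 2 he
  by_cases h0 : piCore Δ G ≠ ⊥
  · exact Or.inl (h.frob h2 h0 ht)
  set K := piCore Δᶜ G with hKd
  set f := QuotientGroup.mk' K
  have hf : Function.Surjective f := QuotientGroup.mk'_surjective K
  have hK := isPiNum_card_piCore Δᶜ G
  by_cases h1 : piCore Δ (G ⧸ K) ≠ ⊥
  · refine Or.inr (Or.inl (h.solvable h2 hp hpΔ hd (fun e => h1 ?_) h1))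
    have hi : Function.Injective f := by rw [← MonoidHom.ker_eq_bot_iff, QuotientGroup.ker_mk', hKd, e]
    have h3 : (piCore Δ (G ⧸ K)).comap f ≤ piCore Δ G := le_piCore
      ((isPiNum_card_piCore Δ (G ⧸ K)).of_dvd (card_comap_dvd_of_injective _ _ hi))
    rw [← map_comap_eq_self_of_surjective hf (piCore Δ (G ⧸ K)), eq_bot_iff.2 (h3.trans (not_not.1 h0).le),
      Subgroup.map_bot]
  have : Nontrivial (G ⧸ K) := nontrivial_quotient_of_ne_top fun e =>
    piCore_eq_top_iff.1 e p hp hd hpΔ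
  obtain ⟨S, _, hS, hn, hi⟩ := (h.quot hf).simple h2 (not_not.1 h1) (piCore_quotient_piCore _ _)
  have e : ((S.comap f) ⧸ K.subgroupOf (S.comap f)) ≃* S := by
    have h3 : (f.subgroupComap S).ker = K.subgroupOf (S.comap f) := by
      ext x
      rw [MonoidHom.mem_ker, Subtype.ext_iff, mem_subgroupOf]
      exact QuotientGroup.eq_one_iff _
    exact (QuotientGroup.quotientMulEquivOfEq h3.symm).trans
      (QuotientGroup.quotientKerEquivOfSurjective _ (f.subgroupComap_surjective_of_surjective S hf))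
  refine Or.inr (Or.inr ⟨K, S.comap f, inferInstance, inferInstance, le_comap_mk' _ _, hK,
    by rwa [index_comap_of_surjective _ hf], e.isSimpleGroup, fun hc => hn ⟨⟨fun x y => ?_⟩⟩⟩)
  obtain ⟨x, rfl⟩ := e.surjective x
  obtain ⟨y, rfl⟩ := e.surjective y
  rw [← map_mul, ← map_mul, hc.is_comm.comm]

end CL.GK
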